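import Cfsg.Prelude.Def_Transfer
import Cfsg.Agent.Golay.TransvectionCentralizer
import Cfsg.Agent.PGroup.Frattini
import Cfsg.Agent.Linear.Orders
import Cfsg.Agent.S0249

set_option autoImplicit false

/-!
The centraliser of a transvection of the five-dimensional space over the field with two elements:
an extraspecial group of order 128 extended by the linear group in three dimensions.
-/

namespace Cfsg.Agent.Golay

open Matrix

/-- The special linear group in five dimensions over the field with two elements. -/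
abbrev SLFive : Type := Matrix.SpecialLinearGroup (Fin 5) (ZMod 2)

/-- The transvection. -/
def stdTv : SLFive :=
  ⟨Matrix.transvection 0 1 1, Matrix.det_transvection_of_ne 0 1 (by decide) 1⟩

/-- Its centraliser. -/
abbrev tvCent : Subgroup SLFive := Subgroup.centralizer ({stdTv} : Set SLFive)

/-- The matrix of an element of the centraliser. -/
abbrev tvMat (x : tvCent) : Matrix (Fin 5) (Fin 5) (ZMod 2) :=
  ((x : SLFive) : Matrix (Fin 5) (Fin 5) (ZMod 2))

theorem tvMat_mul (x y : tvCent) : tvMat (x * y) = tvMat x * tvMat y := rfl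

theorem tvMat_injective {x y : tvCent} (h : tvMat x = tvMat y) : x = y := Subtype.ext (Subtype.ext h)

theorem zmod_two_cases : ∀ a : ZMod 2, a = 0 ∨ a = 1 := by decide

theorem zmod_two_add_self : ∀ a : ZMod 2, a + a = 0 := by decide

theorem zmod_two_cancel : ∀ a b : ZMod 2, a + b = 1 + a → b = 1 := by decide

theorem tv_shape (x : tvCent) : (∀ i, i ≠ 0 → tvMat x i 0 = 0) ∧
    (∀ j, j ≠ 1 → tvMat x 1 j = 0) ∧ tvMat x 0 0 = 1 ∧ tvMat x 1 1 = 1 := by
  have h := transvection_commute_shape (tvMat x) (congrArg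
    (fun y : SLFive => (y : Matrix (Fin 5) (Fin 5) (ZMod 2)))
    (Subgroup.mem_centralizer_singleton_iff.mp x.2))
  refine ⟨h.1, h.2.1, ?_⟩
  have h00 : tvMat x 0 0 = 1 := by
    refine (zmod_two_cases _).resolve_left fun h0 => ?_
    have hd : (tvMat x).det = 0 := Matrix.det_eq_zero_of_column_eq_zero 0 fun i => by
      by_cases hi : i = 0
      · subst hi; exact h0
      · exact h.1 i hi
    exact zero_ne_one (hd.symm.trans (x : SLFive).2)
  exact ⟨h00, h.2.2 ▸ h00⟩

theorem low_mem (i : Fin 3) : (![2, 3, 4] i : Fin 5) ≠ 0 ∧ (![2, 3, 4] i : Fin 5) ≠ 1 := by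
  fin_cases i <;> decide

theorem lowBlock_mul (x y : tvCent) :
    lowBlock (tvMat (x * y)) = lowBlock (tvMat x) * lowBlock (tvMat y) := by
  ext i j
  rw [tvMat_mul, Matrix.mul_apply, Fin.sum_univ_three]
  simp only [lowBlock, Matrix.submatrix_apply]
  rw [Matrix.mul_apply, Fin.sum_univ_five, (tv_shape x).1 _ (low_mem i).1,
    (tv_shape y).2.1 _ (low_mem j).2]
  simp

theorem det_eq_one_of_mul_eq_one {n : Type} [Fintype n] [DecidableEq n] {A B : Matrix n n (ZMod 2)}
    (h : A * B = 1) : A.det = 1 := by
  refine (zmod_two_cases _).resolve_left fun h0 => ?_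
  have := congrArg Matrix.det h
  rw [Matrix.det_mul, h0, zero_mul, Matrix.det_one] at this
  exact zero_ne_one this

theorem lowBlock_det (x : tvCent) : (lowBlock (tvMat x)).det = 1 := by
  refine det_eq_one_of_mul_eq_one (B := lowBlock (tvMat x⁻¹)) ?_
  rw [← lowBlock_mul, mul_inv_cancel]
  ext i j
  fin_cases i <;> fin_cases j <;> rfl

/-- The special linear group in three dimensions over the field with two elements. -/
abbrev SLThree : Type := Matrix.SpecialLinearGroup (Fin 3) (ZMod 2)

/-- The action on the middle layer. -/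
def lowHom : tvCent →* SLThree :=
  MonoidHom.mk' (fun x => ⟨lowBlock (tvMat x), lowBlock_det x⟩)
    fun x y => Subtype.ext (lowBlock_mul x y)

/-- The matrix with a given middle block. -/
def blockMat (B : Matrix (Fin 3) (Fin 3) (ZMod 2)) : Matrix (Fin 5) (Fin 5) (ZMod 2) :=
  !![1, 0, 0, 0, 0;
    0, 1, 0, 0, 0;
    0, 0, B 0 0, B 0 1, B 0 2;
    0, 0, B 1 0, B 1 1, B 1 2;
    0, 0, B 2 0, B 2 1, B 2 2]

theorem blockMat_mul (A B : Matrix (Fin 3) (Fin 3) (ZMod 2)) :
    blockMat (A * B) = blockMat A * blockMat B := by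
  ext i j
  fin_cases i <;> fin_cases j <;>
    simp [blockMat, Matrix.mul_apply, Fin.sum_univ_five, Fin.sum_univ_three]

theorem blockMat_one : blockMat 1 = 1 := by decide +kernel

theorem blockMat_det (B : SLThree) : (blockMat B.1).det = 1 := by
  refine det_eq_one_of_mul_eq_one (B := blockMat (B⁻¹).1) ?_
  rw [← blockMat_mul, ← blockMat_one]
  congr 1
  exact congrArg Subtype.val (mul_inv_cancel B)

/-- The matrix with a given middle block, in the special linear group. -/
def blockSL (B : SLThree) : SLFive := ⟨blockMat B.1, blockMat_det B⟩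

theorem blockMat_mem (B : SLThree) : blockSL B ∈ tvCent := by
  rw [Subgroup.mem_centralizer_singleton_iff]
  refine Subtype.ext ?_
  show blockMat B.1 * Matrix.transvection 0 1 1 = Matrix.transvection 0 1 1 * blockMat B.1
  ext i j
  fin_cases i <;> fin_cases j <;>
    simp [blockMat, Matrix.transvection, Matrix.mul_apply, Fin.sum_univ_five]

/-- The section. -/
def blockHom : SLThree →* tvCent :=
  MonoidHom.mk' (fun B => ⟨_, blockMat_mem B⟩)
    fun A B => tvMat_injective (blockMat_mul A.1 B.1)

theorem lowHom_blockHom (B : SLThree) : lowHom (blockHom B) = B := by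
  refine Subtype.ext ?_
  show lowBlock (blockMat B.1) = B.1
  ext i j
  fin_cases i <;> fin_cases j <;> rfl

theorem card_SLThree : Nat.card SLThree = 168 := by
  classical
  rw [← card_det_three, ← Nat.card_eq_finsetCard]
  refine Nat.card_congr (Equiv.subtypeEquivRight fun B => ?_)
  simp only [Finset.mem_filter, Finset.mem_univ, true_and]
  rw [← Matrix.det_fin_three]
  exact ⟨fun h => by rw [h]; exact one_ne_zero, fun h => (zmod_two_cases _).resolve_left h⟩

theorem isSimple_SLThree : IsSimpleGroup SLThree := by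
  have hZ : Subgroup.center SLThree = ⊥ := by
    rw [← Subgroup.card_eq_one, Cfsg.Agent.Linear.card_center_SL]
    simp [ZMod.card]
  haveI : IsSimpleGroup (Matrix.ProjectiveSpecialLinearGroup (Fin 3) (ZMod 2)) :=
    Cfsg.Agent.S0249.result 3 le_rfl
  exact (QuotientGroup.quotientMulEquivOfEq hZ).trans QuotientGroup.quotientBot
    |>.symm.isSimpleGroup

/-- The matrix with given top row and second column over the identity. -/
def unipMat (a b : Fin 3 → ZMod 2) : Matrix (Fin 5) (Fin 5) (ZMod 2) :=
  !![1, 0, a 0, a 1, a 2;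
    0, 1, 0, 0, 0;
    0, b 0, 1, 0, 0;
    0, b 1, 0, 1, 0;
    0, b 2, 0, 0, 1]

theorem unipMat_data : ∀ a b : Fin 3 → ZMod 2, (a = 0 ∨ b = 0) →
    (unipMat a b).det = 1 ∧
      unipMat a b * Matrix.transvection 0 1 1 = Matrix.transvection 0 1 1 * unipMat a b ∧
      lowBlock (unipMat a b) = 1 := by
  decide +kernel

/-- Basic elements of the kernel. -/
def unipElt (a b : Fin 3 → ZMod 2) (h : a = 0 ∨ b = 0) : tvCent :=
  ⟨⟨unipMat a b, (unipMat_data a b h).1⟩,
    Subgroup.mem_centralizer_singleton_iff.mpr (Subtype.ext (unipMat_data a b h).2.1)⟩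

theorem unipElt_mem (a b : Fin 3 → ZMod 2) (h : a = 0 ∨ b = 0) : unipElt a b h ∈ lowHom.ker :=
  Subtype.ext (unipMat_data a b h).2.2

theorem ker_apply {x : tvCent} (hx : x ∈ lowHom.ker) (i j : Fin 3) :
    tvMat x (![2, 3, 4] i) (![2, 3, 4] j) = (1 : Matrix (Fin 3) (Fin 3) (ZMod 2)) i j :=
  congrFun (congrFun (congrArg Subtype.val hx) i) j

/-- The top row and the second column, read modulo the transvection. -/
def sideHom : lowHom.ker →* Multiplicative ((Fin 3 → ZMod 2) × (Fin 3 → ZMod 2)) :=
  MonoidHom.mk' (fun x => Multiplicative.ofAdd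
    ((fun k => tvMat x.1 0 (![2, 3, 4] k)), fun k => tvMat x.1 (![2, 3, 4] k) 1)) fun x y => by
    rw [← ofAdd_add]
    congr 1
    refine Prod.ext (funext fun k => ?_) (funext fun k => ?_)
    · show tvMat (x.1 * y.1) 0 _ = tvMat x.1 0 _ + tvMat y.1 0 _
      rw [tvMat_mul, Matrix.mul_apply, Fin.sum_univ_five, (tv_shape x.1).2.2.1,
        (tv_shape y.1).2.1 _ (low_mem k).2]
      have h2 := ker_apply y.2 0 k
      have h3 := ker_apply y.2 1 k
      have h4 := ker_apply y.2 2 k
      fin_cases k <;> simp_all [Matrix.one_apply] <;> ring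
    · show tvMat (x.1 * y.1) _ 1 = tvMat x.1 _ 1 + tvMat y.1 _ 1
      rw [tvMat_mul, Matrix.mul_apply, Fin.sum_univ_five, (tv_shape x.1).1 _ (low_mem k).1,
        (tv_shape y.1).2.2.2]
      have h2 := ker_apply x.2 k 0
      have h3 := ker_apply x.2 k 1
      have h4 := ker_apply x.2 k 2
      fin_cases k <;> simp_all [Matrix.one_apply] <;> ring

/-- The element of the centraliser given by the transvection. -/
def stdTv' : tvCent := ⟨stdTv, Subgroup.mem_centralizer_singleton_iff.mpr rfl⟩

theorem stdTv'_mem : stdTv' ∈ lowHom.ker := Subtype.ext (show lowBlock (Matrix.transvection (0 : Fin 5) 1 (1 : ZMod 2)) = 1 by decide +kernel)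

theorem eq_of_side_zero {x : tvCent} (hx : x ∈ lowHom.ker)
    (ha : ∀ k : Fin 3, tvMat x 0 (![2, 3, 4] k) = 0)
    (hb : ∀ k : Fin 3, tvMat x (![2, 3, 4] k) 1 = 0) : x = 1 ∨ x = stdTv' := by
  obtain ⟨s1, s2, s3, s4⟩ := tv_shape x
  rcases zmod_two_cases (tvMat x 0 1) with h | h
  · refine Or.inl (tvMat_injective ?_)
    show tvMat x = 1
    ext i j
    fin_cases i <;> fin_cases j <;>
      first
      | exact s3 | exact s4 | exact h | exact s1 _ (by decide) | exact s2 _ (by decide)
      | exact ha 0 | exact ha 1 | exact ha 2 | exact hb 0 | exact hb 1 | exact hb 2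
      | exact ker_apply hx 0 0 | exact ker_apply hx 0 1 | exact ker_apply hx 0 2
      | exact ker_apply hx 1 0 | exact ker_apply hx 1 1 | exact ker_apply hx 1 2
      | exact ker_apply hx 2 0 | exact ker_apply hx 2 1 | exact ker_apply hx 2 2
  · refine Or.inr (tvMat_injective ?_)
    show tvMat x = Matrix.transvection 0 1 1
    ext i j
    fin_cases i <;> fin_cases j <;>
      first
      | exact s3 | exact s4 | exact h | exact s1 _ (by decide) | exact s2 _ (by decide)
      | exact ha 0 | exact ha 1 | exact ha 2 | exact hb 0 | exact hb 1 | exact hb 2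
      | exact ker_apply hx 0 0 | exact ker_apply hx 0 1 | exact ker_apply hx 0 2
      | exact ker_apply hx 1 0 | exact ker_apply hx 1 1 | exact ker_apply hx 1 2
      | exact ker_apply hx 2 0 | exact ker_apply hx 2 1 | exact ker_apply hx 2 2

theorem sideHom_ker {x : lowHom.ker} (hx : sideHom x = 1) : x.1 = 1 ∨ x.1 = stdTv' := by
  have h := congrArg Multiplicative.toAdd hx
  exact eq_of_side_zero x.2 (fun k => congrFun (congrArg Prod.fst h) k)
    fun k => congrFun (congrArg Prod.snd h) k

/-- The unit vector as a row. -/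
def unitVec (k : Fin 3) : Fin 3 → ZMod 2 := fun i => if i = k then 1 else 0

/-- Nothing outside the group of the transvection commutes with the whole kernel. -/
theorem eq_of_commute_ker {x : tvCent} (h : ∀ y ∈ lowHom.ker, x * y = y * x) :
    x = 1 ∨ x = stdTv' := by
  obtain ⟨s1, s2, s3, s4⟩ := tv_shape x
  have key : ∀ k : Fin 3, (∀ j : Fin 3, tvMat x (![2, 3, 4] k) (![2, 3, 4] j) =
      (1 : Matrix (Fin 3) (Fin 3) (ZMod 2)) k j) ∧
      tvMat x (![2, 3, 4] k) 1 = 0 ∧ tvMat x 0 (![2, 3, 4] k) = 0 := by
    intro k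
    have hr := congrArg tvMat (h _ (unipElt_mem (unitVec k) 0 (Or.inr rfl)))
    have hc := congrArg tvMat (h _ (unipElt_mem 0 (unitVec k) (Or.inl rfl)))
    simp only [tvMat_mul] at hr hc
    rw [show tvMat (unipElt (unitVec k) 0 (Or.inr rfl)) = unipMat (unitVec k) 0 from rfl] at hr
    rw [show tvMat (unipElt 0 (unitVec k) (Or.inl rfl)) = unipMat 0 (unitVec k) from rfl] at hc
    refine ⟨fun j => ?_, ?_, ?_⟩
    · have e := congrFun (congrFun hr 0) (![2, 3, 4] j)
      rw [Matrix.mul_apply, Matrix.mul_apply, Fin.sum_univ_five, Fin.sum_univ_five] at e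
      fin_cases k <;> fin_cases j <;> simp [unipMat, unitVec, s3, s2] at e ⊢ <;>
        first
        | exact e
        | exact e.symm
        | exact zmod_two_cancel _ _ e.symm
    · have e := congrFun (congrFun hr 0) 1
      rw [Matrix.mul_apply, Matrix.mul_apply, Fin.sum_univ_five, Fin.sum_univ_five] at e
      fin_cases k <;> simp [unipMat, unitVec, s3, s4] at e ⊢ <;>
        first
        | exact e
        | exact e.symm
    · have e := congrFun (congrFun hc 0) 1
      rw [Matrix.mul_apply, Matrix.mul_apply, Fin.sum_univ_five, Fin.sum_univ_five] at e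
      fin_cases k <;> simp [unipMat, unitVec, s3, s4] at e ⊢ <;>
        first
        | exact e
        | exact e.symm
  refine eq_of_side_zero ?_ (fun k => (key k).2.2) fun k => (key k).2.1
  refine Subtype.ext ?_
  ext i j
  exact (key i).1 j

theorem stdTv'_ne_one : stdTv' ≠ 1 := by
  intro h
  exact one_ne_zero (congrFun (congrFun (congrArg tvMat h) 0) 1 :
    (1 : ZMod 2) = (0 : ZMod 2))

theorem stdTv'_comm (x : tvCent) : x * stdTv' = stdTv' * x :=
  Subtype.ext (Subgroup.mem_centralizer_singleton_iff.mp x.2)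

theorem ker_card (hC : Nat.card tvCent = 21504) : Nat.card lowHom.ker = 128 := by
  have h := Subgroup.index_mul_card lowHom.ker
  rw [Subgroup.index_ker, MonoidHom.range_eq_top.mpr fun B => ⟨_, lowHom_blockHom B⟩,
    Subgroup.card_top, card_SLThree, hC] at h
  omega

theorem card_eq_two_pair : Nat.card ↥(Subgroup.zpowers (stdTv' : tvCent)) = 2 := by
  rw [Nat.card_zpowers]
  refine orderOf_eq_prime (tvMat_injective ?_) stdTv'_ne_one
  rw [pow_two, tvMat_mul]
  show Matrix.transvection (0 : Fin 5) 1 (1 : ZMod 2) * Matrix.transvection 0 1 1 = 1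
  decide +kernel

theorem center_ker (x : lowHom.ker) :
    x ∈ Subgroup.center lowHom.ker ↔ x.1 = 1 ∨ x.1 = stdTv' := by
  constructor
  · intro h
    exact eq_of_commute_ker fun y hy =>
      (congrArg Subtype.val (Subgroup.mem_center_iff.mp h ⟨y, hy⟩)).symm
  · intro h
    refine Subgroup.mem_center_iff.mpr fun y => Subtype.ext ?_
    show y.1 * x.1 = x.1 * y.1
    rcases h with h | h <;> rw [h]
    · simp
    · exact stdTv'_comm _

theorem card_center_ker : Nat.card (Subgroup.center lowHom.ker) = 2 := by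
  refine Eq.trans ?_ card_eq_two_pair
  have hmap : (Subgroup.center lowHom.ker).map lowHom.ker.subtype = Subgroup.zpowers stdTv' := by
    refine le_antisymm ?_ (Subgroup.zpowers_le.mpr ⟨⟨stdTv', stdTv'_mem⟩,
      (center_ker _).mpr (Or.inr rfl), rfl⟩)
    rintro _ ⟨x, hx, rfl⟩
    rcases (center_ker x).mp hx with h | h
    · rw [Subgroup.coe_subtype, h]; exact one_mem _
    · rw [Subgroup.coe_subtype, h]; exact Subgroup.mem_zpowers _
  rw [← hmap, Subgroup.card_map_of_injective (Subgroup.subtype_injective _)]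

theorem mem_center_of_side {x : lowHom.ker} (h : sideHom x = 1) :
    x ∈ Subgroup.center lowHom.ker := (center_ker x).mpr (sideHom_ker h)

theorem side_pow_two : ∀ v : (Fin 3 → ZMod 2) × (Fin 3 → ZMod 2), v + v = 0 := fun v =>
  Prod.ext (funext fun _ => zmod_two_add_self _) (funext fun _ => zmod_two_add_self _)

theorem isExtraspecial_ker (hC : Nat.card tvCent = 21504) :
    Cfsg.IsExtraspecial 2 lowHom.ker := by
  haveI : Fact (Nat.Prime 2) := ⟨Nat.prime_two⟩
  have hcard := ker_card hC
  have hp : IsPGroup 2 lowHom.ker := IsPGroup.of_card (n := 7) (by rw [hcard]; norm_num)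
  have hfr : frattini lowHom.ker ≤ Subgroup.center lowHom.ker := by
    refine (PGroup.frattini_le_iff hp).mpr ⟨?_, fun x => mem_center_of_side ?_⟩
    · refine (Abelianization.commutator_subset_ker sideHom).trans fun x hx =>
        mem_center_of_side hx
    · rw [map_pow, pow_two, ← ofAdd_toAdd (sideHom x), ← ofAdd_add, side_pow_two, ofAdd_zero]
  have hne : commutator lowHom.ker ≠ ⊥ := by
    intro h
    rw [commutator_def, Subgroup.commutator_eq_bot_iff_le_centralizer] at h
    have hall : ∀ x : lowHom.ker, x ∈ Subgroup.center lowHom.ker := fun x =>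
      Subgroup.mem_center_iff.mpr fun y => h (Subgroup.mem_top x) y (Subgroup.mem_top y)
    have := card_center_ker
    rw [show Subgroup.center lowHom.ker = ⊤ from eq_top_iff.mpr fun x _ => hall x,
      Subgroup.card_top, hcard] at this
    norm_num at this
  have hle : commutator lowHom.ker ≤ Subgroup.center lowHom.ker :=
    (PGroup.commutator_le_frattini hp).trans hfr
  have heq : commutator lowHom.ker = Subgroup.center lowHom.ker := by
    refine Subgroup.eq_of_le_of_card_ge hle ?_
    rw [card_center_ker]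
    exact (Subgroup.one_lt_card_iff_ne_bot _).mpr hne
  exact ⟨⟨hp, le_antisymm hfr (heq ▸ PGroup.commutator_le_frattini hp), heq⟩, card_center_ker⟩

/-- The elements whose top row vanishes form an elementary abelian group of order sixteen. -/
theorem exists_elemAb_ker (hC : Nat.card tvCent = 21504) :
    ∃ E : Subgroup tvCent, E ≤ lowHom.ker ∧ (∀ x ∈ E, x * x = 1) ∧ Nat.card E = 16 := by
  let f : lowHom.ker →* Multiplicative (Fin 3 → ZMod 2) :=
    (AddMonoidHom.toMultiplicative (AddMonoidHom.fst _ _)).comp sideHom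
  have hf : Function.Surjective f := by
    intro a
    refine ⟨⟨_, unipElt_mem (Multiplicative.toAdd a) 0 (Or.inr rfl)⟩, ?_⟩
    refine Multiplicative.toAdd.injective (funext fun k => ?_)
    show unipMat (Multiplicative.toAdd a) 0 0 (![2, 3, 4] k) = _
    fin_cases k <;> rfl
  refine ⟨f.ker.map lowHom.ker.subtype, fun x hx => ?_, ?_, ?_⟩
  · obtain ⟨y, -, rfl⟩ := hx
    exact y.2
  · rintro _ ⟨y, hy, rfl⟩
    have ha : ∀ k : Fin 3, tvMat y.1 0 (![2, 3, 4] k) = 0 := fun k =>
      congrFun (congrArg Multiplicative.toAdd (hy : f y = 1)) k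
    obtain ⟨s1, s2, s3, s4⟩ := tv_shape y.1
    have k00 := ker_apply y.2 0 0
    have k01 := ker_apply y.2 0 1
    have k02 := ker_apply y.2 0 2
    have k10 := ker_apply y.2 1 0
    have k11 := ker_apply y.2 1 1
    have k12 := ker_apply y.2 1 2
    have k20 := ker_apply y.2 2 0
    have k21 := ker_apply y.2 2 1
    have k22 := ker_apply y.2 2 2
    have a0 := ha 0
    have a1 := ha 1
    have a2 := ha 2
    have b1 := s1 1 (by decide)
    have b2 := s1 2 (by decide)
    have b3 := s1 3 (by decide)
    have b4 := s1 4 (by decide)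
    have c2 := s2 2 (by decide)
    have c3 := s2 3 (by decide)
    have c4 := s2 4 (by decide)
    refine tvMat_injective ?_
    rw [tvMat_mul]
    show tvMat y.1 * tvMat y.1 = 1
    simp [Matrix.one_apply] at k00 k01 k02 k10 k11 k12 k20 k21 k22 a0 a1 a2
    ext i j
    rw [Matrix.mul_apply, Fin.sum_univ_five]
    fin_cases i <;> fin_cases j <;>
      simp [*, Matrix.one_apply, zmod_two_add_self]
  · have h := Subgroup.index_mul_card f.ker
    rw [Subgroup.index_ker, MonoidHom.range_eq_top.mpr hf, Subgroup.card_top, ker_card hC] at h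
    rw [Subgroup.card_map_of_injective (Subgroup.subtype_injective _)]
    have h8 : Nat.card (Multiplicative (Fin 3 → ZMod 2)) = 8 := by simp
    rw [h8] at h
    omega

end Cfsg.Agent.Golay
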