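import Mathlib.GroupTheory.FixedPointFree
import Cfsg.Prelude.Def_MonsterType
import Cfsg.Agent.SchurCert.GolayPerm
import Cfsg.Agent.Golay.TransvectionStructure

set_option autoImplicit false

/-!
An involution of `Cfsg.M24` fixing an octad: its centraliser is that of a transvection, and the
largest normal two-subgroup of the centraliser is a large extraspecial subgroup.
-/

namespace Cfsg.Agent.Golay

open Cfsg.Agent.SchurCert
open scoped Pointwise

/-- The isomorphism of centralisers. -/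
theorem exists_centralizer_iso {z : M24} (hz : ⇑(z : Equiv.Perm GolayPt) = wordFun [134]) :
    ∃ e : Subgroup.centralizer ({z} : Set M24) ≃* tvCent,
      (∀ h, e ⟨z, h⟩ = stdTv') ∧
      ∀ x : Subgroup.centralizer ({z} : Set M24), ∀ p, p ∉ oct0 →
        Matrix.mulVec (tvMat (e x)) (affVec p) = affVec (((x : M24) : Equiv.Perm GolayPt) p) := by
  classical
  have hst : ∀ g : Subgroup.centralizer ({z} : Set M24),
      ((g : M24) : Equiv.Perm GolayPt) ∈ octStab := fun g =>
    mem_octStab_of_commute hz (Subgroup.mem_centralizer_singleton_iff.mp g.2)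
  let m : Subgroup.centralizer ({z} : Set M24) →* SLFive :=
    MonoidHom.mk' (fun g => ⟨affMat _ (hst g), affMat_det (hst g)⟩)
      fun g h => Subtype.ext (affMat_mul (hst g) (hst h))
  have hzmat : ∀ h : (z : Equiv.Perm GolayPt) ∈ octStab,
      affMat z h = Matrix.transvection 0 1 1 := fun h => matrix_eq_of_affVec fun p hp => by
    rw [affMat_mulVec h hp, hz, zword_affVec p hp]
  have hm : ∀ g, m g ∈ tvCent := by
    intro g
    let zc : Subgroup.centralizer ({z} : Set M24) :=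
      ⟨z, Subgroup.mem_centralizer_singleton_iff.mpr rfl⟩
    have hzs : m zc = stdTv := Subtype.ext (hzmat _)
    rw [Subgroup.mem_centralizer_singleton_iff, ← hzs, ← map_mul, ← map_mul]
    congr 1
    exact Subtype.ext (Subgroup.mem_centralizer_singleton_iff.mp g.2)
  let m' : Subgroup.centralizer ({z} : Set M24) →* tvCent := m.codRestrict tvCent hm
  have hinj : Function.Injective m' := by
    rw [injective_iff_map_eq_one]
    intro g hg
    refine Subtype.ext (Subtype.ext ?_)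
    exact eq_one_of_affMat (hst g) (congrArg (fun x : tvCent => tvMat x) hg)
  have hbij : Function.Bijective m' := by
    rw [Nat.bijective_iff_injective_and_card]
    exact ⟨hinj, le_antisymm (Nat.card_le_card_of_injective m' hinj)
      ((card_transvection_centralizer_le rfl).trans (card_centralizer_ge hz))⟩
  refine ⟨MulEquiv.ofBijective m' hbij, fun h => ?_, fun x p hp => ?_⟩
  · exact Subtype.ext (Subtype.ext (hzmat _))
  · exact affMat_mulVec (hst x) hp

theorem card_tvCent : Nat.card tvCent = 21504 := by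
  obtain ⟨z, -, hz⟩ := exists_involution_octad
  obtain ⟨e, -, -⟩ := exists_centralizer_iso hz
  exact le_antisymm (card_transvection_centralizer_le rfl)
    ((card_centralizer_ge hz).trans (le_of_eq (Nat.card_congr e.toEquiv)))

/-- The largest normal two-subgroup of the centraliser of the transvection. -/
theorem pCore_tvCent : Cfsg.pCore 2 tvCent = lowHom.ker := by
  haveI : Fact (Nat.Prime 2) := ⟨Nat.prime_two⟩
  haveI := isSimple_SLThree
  refine le_antisymm (sSup_le ?_) (le_sSup ⟨inferInstance, IsPGroup.of_card (n := 7)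
    (by rw [ker_card card_tvCent]; norm_num)⟩)
  rintro N ⟨hN, hN2⟩
  have hn : (N.map lowHom).Normal := hN.map _ fun B => ⟨_, lowHom_blockHom B⟩
  rcases hn.eq_bot_or_eq_top with h | h
  · exact (Subgroup.map_eq_bot_iff _).mp h
  · have h1 := hN2.map lowHom
    rw [h] at h1
    obtain ⟨k, hk⟩ := IsPGroup.iff_card.mp h1
    rw [Subgroup.card_top, card_SLThree] at hk
    have : (7 : ℕ) ∣ 2 ^ k := hk ▸ by norm_num
    have := (by norm_num : Nat.Prime 7).dvd_of_dvd_pow this
    norm_num at this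

/-- The second involution of a four group in the kernel. -/
def fourPair : ℕ × ℕ :=
  (0xbd17661a2a23933ac1a7448af18820, 0xbd17661a2a23933ac1a7448af18820)

/-- An element permuting the involutions of the four group cyclically. -/
def cyclePair : ℕ × ℕ :=
  (0x288684c76a89b25b1074d22f095d7, 0x41e6930b3205aa5d8e9450558b877)

theorem pairs_valid : validPair fourPair = true ∧ validPair cyclePair = true ∧
    PreservesRows (codeFun fourPair.1) ∧ PreservesRows (codeFun cyclePair.1) := by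
  decide +kernel

theorem pairs_relations : ∀ p,
    codeFun fourPair.1 (wordFun [134] p) = wordFun [134] (codeFun fourPair.1 p) ∧
    codeFun cyclePair.1 (wordFun [134] p) = codeFun fourPair.1 (codeFun cyclePair.1 p) ∧
    codeFun cyclePair.1 (codeFun fourPair.1 p) =
      wordFun [134] (codeFun fourPair.1 (codeFun cyclePair.1 p)) := by
  decide +kernel

/-- The matrix of the second involution. -/
def fourMat : Matrix (Fin 5) (Fin 5) (ZMod 2) :=
  1 + Matrix.single 0 1 1 + Matrix.single 2 1 1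

theorem fourMat_data : lowBlock fourMat = 1 ∧ ∀ p, p ∉ oct0 →
    affVec (codeFun fourPair.1 p) = Matrix.mulVec fourMat (affVec p) := by
  decide +kernel

/-- What is used about an involution fixing an octad. -/
structure Model (z : M24) where
  /-- The isomorphism of centralisers. -/
  iso : Subgroup.centralizer ({z} : Set M24) ≃* tvCent
  apply_self : ∀ h, iso ⟨z, h⟩ = stdTv'
  /-- A second involution. -/
  t : M24
  t_comm : t ∈ Subgroup.centralizer ({z} : Set M24)
  t_ker : iso ⟨t, t_comm⟩ ∈ lowHom.ker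
  /-- A cyclic permutation of the four group. -/
  g : M24
  conj_z : g * z * g⁻¹ = t
  conj_t : g * t * g⁻¹ = z * t

theorem exists_model_base : ∃ z : M24, orderOf z = 2 ∧
    ⇑(z : Equiv.Perm GolayPt) = wordFun [134] ∧ Nonempty (Model z) := by
  obtain ⟨z, hz2, hz⟩ := exists_involution_octad
  obtain ⟨e, he1, he2⟩ := exists_centralizer_iso hz
  obtain ⟨hv1, hv2, hr1, hr2⟩ := pairs_valid
  let t : M24 := ⟨permOfPair fourPair, permOfPair_mem_M24 hv1 hr1⟩
  let g : M24 := ⟨permOfPair cyclePair, permOfPair_mem_M24 hv2 hr2⟩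
  have happ : ∀ p, (t : Equiv.Perm GolayPt) p = codeFun fourPair.1 p :=
    permOfPair_apply hv1
  have hgapp : ∀ p, (g : Equiv.Perm GolayPt) p = codeFun cyclePair.1 p :=
    permOfPair_apply hv2
  have htz : t ∈ Subgroup.centralizer ({z} : Set M24) := by
    refine Subgroup.mem_centralizer_singleton_iff.mpr (Subtype.ext (Equiv.ext fun p => ?_))
    simp only [Subgroup.coe_mul, Equiv.Perm.mul_apply, hz, happ]
    exact (pairs_relations p).1
  refine ⟨z, hz2, hz, ⟨⟨e, he1, t, htz, ?_, g, ?_, ?_⟩⟩⟩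
  · have hmat : tvMat (e ⟨t, htz⟩) = fourMat := matrix_eq_of_affVec fun p hp => by
      rw [he2 _ p hp, happ, fourMat_data.2 p hp]
    refine Subtype.ext ?_
    show lowBlock (tvMat (e ⟨t, htz⟩)) = 1
    rw [hmat, fourMat_data.1]
  · rw [mul_inv_eq_iff_eq_mul]
    refine Subtype.ext (Equiv.ext fun p => ?_)
    simp only [Subgroup.coe_mul, Equiv.Perm.mul_apply, hz, happ, hgapp]
    exact (pairs_relations p).2.1
  · rw [mul_inv_eq_iff_eq_mul]
    refine Subtype.ext (Equiv.ext fun p => ?_)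
    simp only [Subgroup.coe_mul, Equiv.Perm.mul_apply, hz, happ, hgapp]
    exact (pairs_relations p).2.2

/-- Conjugation carries models along. -/
theorem Model.conj {z₀ z : M24} (M : Model z₀) {a : M24} (h : a * z₀ * a⁻¹ = z) :
    Nonempty (Model z) := by
  have hmap : ∀ x : M24, x ∈ Subgroup.centralizer ({z₀} : Set M24) →
      a * x * a⁻¹ ∈ Subgroup.centralizer ({z} : Set M24) := by
    intro x hx
    rw [Subgroup.mem_centralizer_singleton_iff] at hx ⊢
    rw [← h, show a * x * a⁻¹ * (a * z₀ * a⁻¹) = a * (x * z₀) * a⁻¹ by group, hx]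
    group
  have hmap' : ∀ x : M24, x ∈ Subgroup.centralizer ({z} : Set M24) →
      a⁻¹ * x * a ∈ Subgroup.centralizer ({z₀} : Set M24) := by
    intro x hx
    rw [Subgroup.mem_centralizer_singleton_iff] at hx ⊢
    rw [show z₀ = a⁻¹ * z * a by rw [← h]; group,
      show a⁻¹ * x * a * (a⁻¹ * z * a) = a⁻¹ * (x * z) * a by group, hx]
    group
  let c : Subgroup.centralizer ({z} : Set M24) ≃* Subgroup.centralizer ({z₀} : Set M24) :=
    { toFun := fun x => ⟨_, hmap' x x.2⟩
      invFun := fun x => ⟨_, hmap x x.2⟩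
      left_inv := fun x => Subtype.ext (by
        show a * (a⁻¹ * (x : M24) * a) * a⁻¹ = x
        group)
      right_inv := fun x => Subtype.ext (by
        show a⁻¹ * (a * (x : M24) * a⁻¹) * a = x
        group)
      map_mul' := fun x y => Subtype.ext (by
        show a⁻¹ * ((x : M24) * y) * a = a⁻¹ * x * a * (a⁻¹ * y * a)
        group) }
  have hc : ∀ (x : M24) (hx : a * x * a⁻¹ ∈ Subgroup.centralizer ({z} : Set M24))
      (hx' : x ∈ Subgroup.centralizer ({z₀} : Set M24)), c ⟨_, hx⟩ = ⟨x, hx'⟩ :=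
    fun x hx hx' => Subtype.ext (show a⁻¹ * (a * x * a⁻¹) * a = x by group)
  refine ⟨⟨c.trans M.iso, fun hh => ?_, a * M.t * a⁻¹, hmap _ M.t_comm, ?_, a * M.g * a⁻¹,
    ?_, ?_⟩⟩
  · have hz0 : z₀ ∈ Subgroup.centralizer ({z₀} : Set M24) :=
      Subgroup.mem_centralizer_singleton_iff.mpr rfl
    subst h
    rw [MulEquiv.trans_apply, hc z₀ hh hz0, M.apply_self]
  · rw [MulEquiv.trans_apply, hc _ _ M.t_comm]
    exact M.t_ker
  · rw [← h, show a * M.g * a⁻¹ * (a * z₀ * a⁻¹) * (a * M.g * a⁻¹)⁻¹ =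
      a * (M.g * z₀ * M.g⁻¹) * a⁻¹ by group, M.conj_z]
  · rw [← h, show a * M.g * a⁻¹ * (a * M.t * a⁻¹) * (a * M.g * a⁻¹)⁻¹ =
      a * (M.g * M.t * M.g⁻¹) * a⁻¹ by group, M.conj_t]
    group

/-- An involution that is fixed-point-free on a group of odd order normalised by it inverts it. -/
theorem inverts_of_fixedPointFree {G : Type*} [Group G] [Finite G] {K : Subgroup G} {u : G}
    (hu : u * u = 1) (hK : u ∈ Subgroup.normalizer (K : Set G))
    (hfpf : ∀ k ∈ K, u * k * u⁻¹ = k → k = 1) : ∀ k ∈ K, u * k * u⁻¹ = k⁻¹ := by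
  intro k hk
  let φ : K →* K := MonoidHom.mk'
    (fun x => ⟨u * x * u⁻¹, (Subgroup.mem_normalizer_iff.mp hK _).mp x.2⟩)
    fun x y => Subtype.ext (by
      show u * ((x : G) * y) * u⁻¹ = u * x * u⁻¹ * (u * y * u⁻¹)
      group)
  have h1 : MonoidHom.FixedPointFree φ := fun x hx =>
    Subtype.ext (hfpf x x.2 (congrArg Subtype.val hx))
  have hui : u⁻¹ = u := inv_eq_of_mul_eq_one_right hu
  have h2 : Function.Involutive φ := fun x => Subtype.ext (by
    show u * (u * (x : G) * u⁻¹) * u⁻¹ = x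
    rw [show u * (u * (x : G) * u⁻¹) * u⁻¹ = (u * u) * x * (u * u)⁻¹ by group, hu]
    simp)
  exact congrArg Subtype.val (congrFun (h1.coe_eq_inv_of_involutive h2) ⟨k, hk⟩)

/-- A two-subgroup with the centraliser of its central involution `z` in its normalizer and
centralised only by two-elements, containing a four group `z, t, z t` permuted cyclically,
normalises no nontrivial subgroup of odd order. -/
theorem odd_eq_bot {G : Type*} [Group G] [Finite G] {Q : Subgroup G} (hQ : IsPGroup 2 Q)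
    {z t g : G} (hz : z ∈ Q) (ht : t ∈ Q) (hz2 : z * z = 1) (hzt : z * t = t * z)
    (hCz : Subgroup.centralizer ({z} : Set G) ≤ Subgroup.normalizer (Q : Set G))
    (hCQ : IsPGroup 2 (Subgroup.centralizer (Q : Set G)))
    (hgz : g * z * g⁻¹ = t) (hgt : g * t * g⁻¹ = z * t)
    {K : Subgroup G} (hK : Odd (Nat.card K)) (hQK : Q ≤ Subgroup.normalizer (K : Set G)) :
    K = ⊥ := by
  haveI : Fact (Nat.Prime 2) := ⟨Nat.prime_two⟩
  have hodd : ∀ (R : Subgroup G), IsPGroup 2 R → ∀ k ∈ K, k ∈ R → k = 1 := by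
    intro R hR k hk hkR
    have h1 : Nat.card ↥(K ⊓ R) ∣ Nat.card K := Subgroup.card_dvd_of_le inf_le_left
    obtain ⟨j, hj⟩ := IsPGroup.iff_card.mp (hR.to_le (inf_le_right : K ⊓ R ≤ R))
    rcases Nat.eq_zero_or_pos j with rfl | hj0
    · rw [pow_zero, Subgroup.card_eq_one] at hj
      exact (Subgroup.eq_bot_iff_forall _).mp hj k ⟨hk, hkR⟩
    · exact absurd ((dvd_pow_self 2 hj0.ne').trans (hj ▸ h1)) hK.not_two_dvd_nat
  have hconj : ∀ u ∈ Q, ∀ k ∈ K, u * k * u⁻¹ ∈ K := fun u hu k hk =>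
    (Subgroup.mem_normalizer_iff.mp (hQK hu) k).mp hk
  have hcz : ∀ k ∈ K, z * k * z⁻¹ = k → k = 1 := by
    intro k hk hzk
    refine hodd _ hCQ k hk (Subgroup.mem_centralizer_iff.mpr fun q hq => ?_)
    have hkc : k ∈ Subgroup.centralizer ({z} : Set G) :=
      Subgroup.mem_centralizer_singleton_iff.mpr (mul_inv_eq_iff_eq_mul.mp hzk).symm
    have h1 : k * q * k⁻¹ * q⁻¹ ∈ Q :=
      mul_mem ((Subgroup.mem_normalizer_iff.mp (hCz hkc) q).mp hq) (inv_mem hq)
    have h2 : k * q * k⁻¹ * q⁻¹ ∈ K := by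
      rw [show k * q * k⁻¹ * q⁻¹ = k * (q * k⁻¹ * q⁻¹) by group]
      exact mul_mem hk (hconj q hq _ (inv_mem hk))
    have h3 := hodd Q hQ _ h2 h1
    rw [mul_inv_eq_one, mul_inv_eq_iff_eq_mul] at h3
    exact h3.symm
  have hzinv := inverts_of_fixedPointFree hz2 (hQK hz) hcz
  have hfpf : ∀ w : G, w⁻¹ * z * w ∈ Q → ∀ k ∈ K,
      w * z * w⁻¹ * k * (w * z * w⁻¹)⁻¹ = k → k = 1 := by
    intro w hw k hk hkk
    have hkc : w⁻¹ * k * w ∈ Subgroup.centralizer ({z} : Set G) := by
      rw [Subgroup.mem_centralizer_singleton_iff]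
      have h4 := mul_inv_eq_iff_eq_mul.mp hkk
      calc w⁻¹ * k * w * z = w⁻¹ * (k * (w * z * w⁻¹)) * w := by group
        _ = w⁻¹ * (w * z * w⁻¹ * k) * w := by rw [h4]
        _ = z * (w⁻¹ * k * w) := by group
    have hR : IsPGroup 2 (Q.map (MulAut.conj w).toMonoidHom) := hQ.map _
    have hzR : z ∈ Q.map (MulAut.conj w).toMonoidHom :=
      ⟨_, hw, show w * (w⁻¹ * z * w) * w⁻¹ = z by group⟩
    have hkzR : k * z * k⁻¹ ∈ Q.map (MulAut.conj w).toMonoidHom := by
      refine ⟨(w⁻¹ * k * w) * (w⁻¹ * z * w) * (w⁻¹ * k * w)⁻¹,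
        (Subgroup.mem_normalizer_iff.mp (hCz hkc) _).mp hw, ?_⟩
      show w * _ * w⁻¹ = _
      group
    have hsq : k * z * k⁻¹ * z⁻¹ = k * k := by
      rw [show k * z * k⁻¹ * z⁻¹ = k * (z * k⁻¹ * z⁻¹) by group,
        hzinv _ (inv_mem hk), inv_inv]
    have hkk1 : k * k = 1 :=
      hodd _ hR _ (mul_mem hk hk) (hsq ▸ mul_mem hkzR (inv_mem hzR))
    by_contra hk1
    refine hK.not_two_dvd_nat ?_
    have : orderOf (⟨k, hk⟩ : K) = 2 :=
      orderOf_eq_prime (Subtype.ext ((pow_two k).trans hkk1)) fun h => hk1 (congrArg Subtype.val h)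
    exact this ▸ orderOf_dvd_natCard _
  have hzz : z⁻¹ = z := inv_eq_of_mul_eq_one_right hz2
  have ht2 : t * t = 1 := by
    rw [← hgz, show g * z * g⁻¹ * (g * z * g⁻¹) = g * (z * z) * g⁻¹ by group, hz2]
    simp
  have hgz' : g⁻¹ * t * g = z := by rw [← hgz]; group
  have hgt' : g⁻¹ * (z * t) * g = t := by rw [← hgt]; group
  have hgzz : g⁻¹ * z * g = z * t := by
    calc g⁻¹ * z * g = g⁻¹ * ((z * t) * t) * g := by rw [mul_assoc z t t, ht2, mul_one]
      _ = (g⁻¹ * (z * t) * g) * (g⁻¹ * t * g) := by group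
      _ = z * t := by rw [hgt', hgz', hzt]
  have htfpf : ∀ k ∈ K, t * k * t⁻¹ = k → k = 1 := by
    have := hfpf g (hgzz ▸ mul_mem hz ht)
    rwa [hgz] at this
  have htinv := inverts_of_fixedPointFree ht2 (hQK ht) htfpf
  refine (Subgroup.eq_bot_iff_forall K).mpr fun k hk => ?_
  have hgg : g * g * z * (g * g)⁻¹ = z * t := by
    rw [show g * g * z * (g * g)⁻¹ = g * (g * z * g⁻¹) * g⁻¹ by group, hgz, hgt]
  have hgg' : (g * g)⁻¹ * z * (g * g) = t := by
    rw [show (g * g)⁻¹ * z * (g * g) = g⁻¹ * (g⁻¹ * z * g) * g by group, hgzz, hgt']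
  have h := hfpf (g * g) (hgg' ▸ ht) k hk
  rw [hgg] at h
  refine h ?_
  rw [show z * t * k * (z * t)⁻¹ = z * (t * k * t⁻¹) * z⁻¹ by group, htinv k hk,
    hzinv _ (inv_mem hk), inv_inv]

/-- The structure of the centraliser of an involution with a model. -/
theorem Model.structure_centralizer {z : M24} (M : Model z) (hz2 : orderOf z = 2)
    (Q : Subgroup M24)
    (hQ : Q = (Cfsg.pCore 2 ↥(Subgroup.centralizer ({z} : Set M24))).map
      (Subgroup.centralizer ({z} : Set M24)).subtype) :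
    Cfsg.IsExtraspecial 2 ↥Q ∧ Nat.card ↥Q = 2 ^ 7 ∧
      (∃ E : Subgroup M24, E ≤ Q ∧ Cfsg.IsElementaryAbelian 2 E ∧ Nat.card ↥E = 2 ^ 4) ∧
      Cfsg.IsLargeExtraspecial Q ∧
      ∃ K : Subgroup M24, K ≤ Subgroup.centralizer ({z} : Set M24) ∧ Q ⊓ K = ⊥ ∧
        Q ⊔ K = Subgroup.centralizer ({z} : Set M24) ∧
        Nonempty (↥K ≃* Matrix.SpecialLinearGroup (Fin 3) (ZMod 2)) := by
  haveI : Fact (Nat.Prime 2) := ⟨Nat.prime_two⟩
  let f : tvCent →* M24 :=
    (Subgroup.centralizer ({z} : Set M24)).subtype.comp M.iso.symm.toMonoidHom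
  have hf : Function.Injective f := fun x y h =>
    M.iso.symm.injective (Subtype.ext h)
  have hfC : ∀ x, f x ∈ Subgroup.centralizer ({z} : Set M24) := fun x => (M.iso.symm x).2
  have hfapp : ∀ (x : M24) (hx : x ∈ Subgroup.centralizer ({z} : Set M24)),
      f (M.iso ⟨x, hx⟩) = x := fun x hx =>
    congrArg Subtype.val (M.iso.symm_apply_apply ⟨x, hx⟩)
  have hQ' : Q = lowHom.ker.map f := by
    rw [hQ, ← pCore_tvCent]
    refine le_antisymm ?_ ?_
    · refine Subgroup.map_le_iff_le_comap.mpr (sSup_le ?_)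
      rintro N ⟨hN, hN2⟩ x hx
      refine ⟨M.iso x, ?_, congrArg Subtype.val (M.iso.symm_apply_apply x)⟩
      exact le_sSup (s := {N : Subgroup tvCent | N.Normal ∧ IsPGroup 2 N})
        ⟨hN.map _ M.iso.surjective, hN2.map M.iso.toMonoidHom⟩ ⟨x, hx, rfl⟩
    · refine Subgroup.map_le_iff_le_comap.mpr (sSup_le ?_)
      rintro N ⟨hN, hN2⟩ x hx
      refine ⟨M.iso.symm x, ?_, rfl⟩
      exact le_sSup (s := {N : Subgroup (Subgroup.centralizer ({z} : Set M24)) |
          N.Normal ∧ IsPGroup 2 N})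
        ⟨hN.map _ M.iso.symm.surjective, hN2.map M.iso.symm.toMonoidHom⟩ ⟨x, hx, rfl⟩
  subst hQ'
  clear hQ
  let eQ : lowHom.ker ≃* ↥(lowHom.ker.map f) := lowHom.ker.equivMapOfInjective f hf
  have hex0 := isExtraspecial_ker card_tvCent
  have hcenter : (Subgroup.center lowHom.ker).map eQ.toMonoidHom =
      Subgroup.center ↥(lowHom.ker.map f) := by
    ext y
    constructor
    · rintro ⟨x, hx, rfl⟩
      refine Subgroup.mem_center_iff.mpr fun w => ?_
      obtain ⟨v, rfl⟩ := eQ.surjective w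
      show eQ v * eQ x = eQ x * eQ v
      rw [← map_mul, ← map_mul, Subgroup.mem_center_iff.mp hx v]
    · intro hy
      refine ⟨eQ.symm y, Subgroup.mem_center_iff.mpr fun v => eQ.injective ?_,
        eQ.apply_symm_apply y⟩
      rw [map_mul, map_mul, eQ.apply_symm_apply]
      exact Subgroup.mem_center_iff.mp hy (eQ v)
  have hfz : f stdTv' = z := by
    rw [← M.apply_self (Subgroup.mem_centralizer_singleton_iff.mpr rfl)]
    exact hfapp z _
  have hzQ : z ∈ lowHom.ker.map f := ⟨stdTv', stdTv'_mem, hfz⟩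
  have htQ : M.t ∈ lowHom.ker.map f := ⟨_, M.t_ker, hfapp _ M.t_comm⟩
  have hCQ : Subgroup.centralizer ((lowHom.ker.map f : Subgroup M24) : Set M24) =
      Subgroup.zpowers z := by
    refine le_antisymm (fun x hx => ?_) (Subgroup.zpowers_le.mpr ?_)
    · have hxz : x ∈ Subgroup.centralizer ({z} : Set M24) :=
        Subgroup.mem_centralizer_singleton_iff.mpr (Subgroup.mem_centralizer_iff.mp hx z hzQ).symm
      have hcomm : ∀ y ∈ lowHom.ker, M.iso ⟨x, hxz⟩ * y = y * M.iso ⟨x, hxz⟩ := fun y hy => hf (by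
        rw [map_mul, map_mul, hfapp x hxz]
        exact (Subgroup.mem_centralizer_iff.mp hx (f y) ⟨y, hy, rfl⟩).symm)
      rcases eq_of_commute_ker hcomm with h | h
      · rw [← hfapp x hxz, h, map_one]; exact one_mem _
      · rw [← hfapp x hxz, h, hfz]; exact Subgroup.mem_zpowers z
    · refine Subgroup.mem_centralizer_iff.mpr ?_
      rintro _ ⟨y, -, rfl⟩
      exact Subgroup.mem_centralizer_singleton_iff.mp (hfC y)
  have hcentre : (Subgroup.center ↥(lowHom.ker.map f)).map (lowHom.ker.map f).subtype =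
      Subgroup.zpowers z := by
    refine le_antisymm ?_ (Subgroup.zpowers_le.mpr ⟨⟨z, hzQ⟩, ?_, rfl⟩)
    · rintro _ ⟨x, hx, rfl⟩
      rw [← hCQ]
      exact Subgroup.mem_centralizer_iff.mpr fun q hq =>
        congrArg Subtype.val (Subgroup.mem_center_iff.mp hx ⟨q, hq⟩)
    · refine Subgroup.mem_center_iff.mpr fun q => Subtype.ext ?_
      obtain ⟨y, -, hy⟩ := q.2
      show (q : M24) * z = z * q
      rw [← hy]
      exact Subgroup.mem_centralizer_singleton_iff.mp (hfC y)
  have hexQ : Cfsg.IsExtraspecial 2 ↥(lowHom.ker.map f) := by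
    obtain ⟨⟨hp, hfr, hcm⟩, hc⟩ := hex0
    refine ⟨⟨hp.of_equiv eQ, ?_, ?_⟩, ?_⟩
    · rw [← hcenter, ← hfr]
      exact (PGroup.map_frattini hp eQ.toMonoidHom eQ.surjective).symm
    · rw [← hcenter, ← hcm, commutator_def, commutator_def, Subgroup.map_commutator,
        Subgroup.map_top_of_surjective _ eQ.surjective]
    · rw [← hcenter, Subgroup.card_map_of_injective eQ.injective, hc]
  have hCz : Subgroup.centralizer ({z} : Set M24) ≤
      Subgroup.normalizer ((lowHom.ker.map f : Subgroup M24) : Set M24) := by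
    intro x hx
    refine Subgroup.mem_normalizer_iff.mpr fun y => ?_
    have key : ∀ w ∈ Subgroup.centralizer ({z} : Set M24), ∀ v ∈ lowHom.ker.map f,
        w * v * w⁻¹ ∈ lowHom.ker.map f := by
      rintro w hw _ ⟨v, hv, rfl⟩
      refine ⟨M.iso ⟨w, hw⟩ * v * (M.iso ⟨w, hw⟩)⁻¹,
        (inferInstance : lowHom.ker.Normal).conj_mem v hv _, ?_⟩
      rw [map_mul, map_mul, map_inv, hfapp w hw]
    refine ⟨key x hx y, fun h => ?_⟩
    have := key x⁻¹ (inv_mem hx) _ h
    rwa [show x⁻¹ * (x * y * x⁻¹) * x⁻¹⁻¹ = y by group] at this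
  have hzz : z * z = 1 := by
    rw [← pow_two, ← hz2, pow_orderOf_eq_one]
  refine ⟨hexQ, ?_, ?_, ⟨hexQ, ?_, ?_, ?_⟩, ?_⟩
  · rw [Subgroup.card_map_of_injective hf, ker_card card_tvCent]; norm_num
  · obtain ⟨E, hE, hsq, hcard⟩ := exists_elemAb_ker card_tvCent
    refine ⟨E.map f, Subgroup.map_mono hE, ⟨⟨⟨?_⟩⟩, ?_⟩, ?_⟩
    · rintro ⟨_, x, hx, rfl⟩ ⟨_, y, hy, rfl⟩
      refine Subtype.ext ?_
      show f x * f y = f y * f x
      rw [← map_mul, ← map_mul]
      have h1 := hsq x hx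
      have h2 := hsq y hy
      have h3 := hsq (x * y) (mul_mem hx hy)
      congr 1
      calc x * y = (x * y)⁻¹ := (inv_eq_of_mul_eq_one_right h3).symm
        _ = y⁻¹ * x⁻¹ := mul_inv_rev x y
        _ = y * x := by rw [inv_eq_of_mul_eq_one_right h1, inv_eq_of_mul_eq_one_right h2]
    · rintro _ ⟨x, hx, rfl⟩
      rw [← map_pow, pow_two, hsq x hx, map_one]
    · rw [Subgroup.card_map_of_injective hf, hcard]; norm_num
  · rw [hCQ, hcentre]
  · refine le_trans ?_ hCz
    rw [hcentre]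
    exact Subgroup.centralizer_le (Set.singleton_subset_iff.mpr (Subgroup.mem_zpowers z))
  · intro K hK hQK
    refine odd_eq_bot (hexQ.1.1) hzQ htQ hzz
      (Subgroup.mem_centralizer_singleton_iff.mp M.t_comm).symm hCz ?_ M.conj_z M.conj_t hK hQK
    rw [hCQ]
    exact IsPGroup.of_card (n := 1) (by rw [Nat.card_zpowers, hz2, pow_one])
  · refine ⟨blockHom.range.map f, ?_, ?_, ?_, ?_⟩
    · rintro _ ⟨x, -, rfl⟩
      exact hfC x
    · refine (Subgroup.eq_bot_iff_forall _).mpr ?_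
      rintro _ ⟨⟨x, hx, rfl⟩, ⟨_, ⟨B, rfl⟩, hB⟩⟩
      have h1 : lowHom x = 1 := hx
      rw [← hf hB, lowHom_blockHom] at h1
      rw [← hf hB, h1, map_one, map_one]
    · refine le_antisymm (sup_le ?_ ?_) fun x hx => ?_
      · rintro _ ⟨y, -, rfl⟩; exact hfC y
      · rintro _ ⟨y, -, rfl⟩; exact hfC y
      · rw [← hfapp x hx, ← inv_mul_cancel_right (M.iso ⟨x, hx⟩)
          (blockHom (lowHom (M.iso ⟨x, hx⟩))), map_mul]
        refine Subgroup.mul_mem_sup ⟨_, ?_, rfl⟩ ⟨_, ⟨_, rfl⟩, rfl⟩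
        rw [SetLike.mem_coe, MonoidHom.mem_ker, map_mul, map_inv, lowHom_blockHom, mul_inv_cancel]
    · refine ⟨((MonoidHom.ofInjective
        (Function.LeftInverse.injective lowHom_blockHom)).trans
          (blockHom.range.equivMapOfInjective f hf)).symm⟩

end Cfsg.Agent.Golay
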