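import Cfsg.Agent.Golay.FusionCert

set_option autoImplicit false

/-!
The certificate for the fusion at the prime 2 in the Mathieu group M24.
-/

namespace Cfsg.Agent.Golay

open Cfsg.Agent.SchurCert Cfsg.Agent.AutCert

/-- The generators of the Sylow subgroup with their inverses. -/
def m24FusGens : List (ℕ × ℕ) :=
  [(0xbd8748ca6479dac4254b714d0a8801, 0xbd8748ca6479dac4254b714d0a8801),
    (0x63ead88a64b3a975a548394d01c820, 0x63ead88a64b3a975a548394d01c820),
    (0x950769de2469de25a548718b0ab020, 0x950769de2469de25a548718b0ab020),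
    (0xb5eb28d27061c4f4254b718a41b420, 0xb5eb28d27061c4f4254b718a41b420),
    (0xbd8f42c8c978dac09200ac66a70968, 0xbd8f42c8c978dac09200ac66a70968),
    (0xbbc6d2c8cab1e8c5c08874669a8820, 0xbbc6d2c8cab1e8c5c08874669a8820),
    (0xbd1d68ca696d5ec59208194ca38820, 0xbd1d68ca696d5ec59208194ca38820),
    (0xbd834549267a1ac3ce2e5c08500aa3, 0xbd834549267a1ac3ce2e5c08500aa3),
    (0x63eb44c946b1db74466b7408518820, 0x63eb44c946b1db74466b7408518820),
    (0xbd8d4748e17cdac4a16a8d46028a04, 0xbd8d4748e17cdac4a16a8d46028a04)]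

/-- The fusing elements with their inverses. -/
def m24FusElts : List (ℕ × ℕ) :=
  [(0x8a9d464af04d5b30d9e3018a440967, 0x8a9d464af04d5b30d9e3018a440967),
    (0xbb0d45486e79da289501802645d935, 0xb88142c9677c1b61cc29755448b106),
    (0x8cf454c5073da832645b5c8cac560, 0x31c749245073da40cd4caad05b46e0),
    (0xbd9ac49c0a785cb2924299a83822b1, 0xbd8253a4037b6b4642629196a221d1),
    (0x31593744770d1683bed56c12290144, 0x8250ea0e4654cf5684ac5dec0891e2),
    (0x1a9d4a902249e4044e2fb40adb996c, 0x19e7453526454800d9eb708b2bc22c),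
    (0x5a9b0180f7ad9d133d931113491501, 0x839e440d94536a9bd8a18ac4699c12)]

/-- The certificate. -/
def m24FusCert : FusCert where
  P :=
    { p := 2
      n := 10
      powW := [[], [], [], [], [], [], [], [], [], []]
      cjW := [[], [[0]], [[0], [1]], [[0], [1], [2]], [[0], [1], [2], [0, 3]], [[0], [1], [2], [1, 3], [4]], [[0], [1], [2], [2, 3], [4], [5]], [[0], [1], [0, 2], [3], [4], [0, 5], [0, 4, 6]], [[0], [1], [1, 2], [3], [0, 4], [5], [5, 6], [7]], [[0], [0, 1], [0, 2], [3], [4], [0, 4, 5], [4, 6], [7], [7, 8]]] }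
  gens := m24FusGens.map Prod.fst
  zW := [0]
  gs := m24FusElts.map Prod.fst
  steps := [([0], 0, [0, 7, 8]), ([0], 1, [4, 7, 9]), ([0, 2, 1, 2], 2, [0, 1, 4, 5]), ([1, 3, 2, 1, 3], 3, [0, 1, 8]), ([3, 2, 3], 4, [2]), ([1, 3, 5, 1, 5], 5, [3]), ([1, 2, 4, 3, 2, 3], 6, [1, 6, 7, 9])]
  last := [[0], [1, 2, 4, 2], [5], [6], [0, 2, 3, 2, 3], [1, 2, 4, 3, 2], [1, 2, 3, 7, 1], [1, 5, 4, 5], [2, 1, 2], [3, 4, 2, 4, 3]]

theorem m24Fus_presOK : m24FusCert.presOK = true := by decide +kernel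

theorem m24Fus_centreOK : m24FusCert.centreOK = true := by decide +kernel

theorem m24Fus_fusOK : m24FusCert.fusOK = true := by decide +kernel

end Cfsg.Agent.Golay
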