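import Cfsg.Agent.Golay.FusionCert
import Cfsg.Prelude.Def_Transfer

set_option autoImplicit false

/-!
A certified two-group modulo its centre `⟨z⟩` of order two: centres of maximal subgroups and the
abelian subgroups of order 64.
-/

namespace Cfsg.Agent.Golay

open Cfsg.Agent.SchurCert

/-- Equality modulo `z`. -/
def sameMod (z a b : ℕ) : Bool := Nat.beq a b || Nat.beq a (permMul b z)

/-- Commutation modulo `z`. -/
def commMod (z a b : ℕ) : Bool := sameMod z (permMul a b) (permMul b a)

/-- The data: codes of four elements, of the roots of squares, of a generating list of an elementary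
abelian subgroup and of its elements with the images under multiplication by the generators, of
coset representatives of it, and the position of every element. -/
structure ModData where
  /-- Elements used to tell the maximal subgroups apart. -/
  base : List ℕ
  /-- Their squares lie in every maximal subgroup. -/
  roots : List ℕ
  /-- For each set of the four elements, the central elements. -/
  centres : List (List ℕ)
  /-- Generators of the abelian subgroup. -/
  aGens : List ℕ
  /-- Its elements. -/
  aEls : List ℕ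
  /-- The products with the generators. -/
  aMul : List (List ℕ)
  /-- Coset representatives. -/
  reps : List ℕ
  /-- For each element, its coset and the element of the abelian subgroup. -/
  pos : List (ℕ × ℕ)

namespace ModData

variable (T : ModData) (z : ℕ) (L : List ℕ)

/-- Elements known to lie in a maximal subgroup with the given set of missed basic elements. -/
def maxGens (f : ℕ) : List ℕ :=
  let k := ((List.range 4).find? fun i => f.testBit i).getD 4
  (T.roots.map fun x => permMul x x) ++
    (List.range 4).filterMap fun i =>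
      bif f.testBit i then
        (bif Nat.beq i k then none else some (permMul (T.base.getD i permOne) (T.base.getD k permOne)))
      else some (T.base.getD i permOne)

/-- The centres of the maximal subgroups are small. -/
def maxOK : Bool :=
  Nat.beq T.base.length 4 && (T.base ++ T.roots).all (fun x => L.any fun y => Nat.beq x y) &&
    (List.range 16).all fun f =>
      Nat.ble (T.centres.getD f []).length 8 &&
        (T.centres.getD f []).all (fun c => L.any fun y => Nat.beq c y) && L.all fun x =>
        (T.centres.getD f []).any (fun c => sameMod z x c) ||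
          (T.maxGens f).any fun g => !commMod z x g

/-- The abelian subgroup is elementary abelian of order 64. -/
def abOK : Bool :=
  Nat.beq T.aEls.length 64 && T.aEls.all (fun x => L.any fun y => Nat.beq x y) &&
    T.aGens.all (fun g => T.aEls.any fun a => Nat.beq g a) &&
    Nat.beq (T.aEls.getD 0 0) permOne &&
    T.aGens.all (fun g => sameMod z (permMul g g) permOne && T.aGens.all fun h => commMod z g h) &&
    ((List.range 64).all fun k => (List.range k).all fun j =>
      !sameMod z (T.aEls.getD k 0) (T.aEls.getD j 0)) &&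
    ((List.range 64).all fun k => (List.range T.aGens.length).all fun j =>
      Nat.blt ((T.aMul.getD k []).getD j 64) 64 &&
        sameMod z (permMul (T.aEls.getD k 0) (T.aGens.getD j 0))
          (T.aEls.getD ((T.aMul.getD k []).getD j 64) 0)) &&
    ((List.range 64).all fun k => Nat.beq k 0 || ((List.range k).any fun j =>
      (List.range T.aGens.length).any fun i => Nat.beq ((T.aMul.getD j []).getD i 64) k))

/-- The elements of the abelian subgroup commuting with two representatives. -/
def centPair (i j : ℕ) : List ℕ :=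
  (List.range 64).filter fun k =>
    commMod z (T.aEls.getD k 0) (T.reps.getD i 0) && commMod z (T.aEls.getD k 0) (T.reps.getD j 0)

/-- Few elements of the abelian subgroup commute with elements outside it. -/
def cosetOK : Bool :=
  Nat.beq T.reps.length 8 && Nat.beq (T.reps.getD 0 0) permOne &&
    T.reps.all (fun x => L.any fun y => Nat.beq x y) &&
    Nat.beq L.length T.pos.length &&
    (L.zip T.pos).all (fun e => Nat.blt e.2.1 8 && Nat.blt e.2.2 64 &&
      sameMod z e.1 (permMul (T.reps.getD e.2.1 0) (T.aEls.getD e.2.2 0))) &&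
    ((List.range 8).all fun i => Nat.beq i 0 || (Nat.ble (T.centPair z i i).length 16 &&
      (List.range i).all fun j => Nat.beq j 0 || Nat.ble (T.centPair z i j).length 8)) &&
    (List.range 8).any fun i => (List.range i).any fun j =>
      !Nat.beq j 0 && Nat.ble (T.centPair z i j).length 4

end ModData

section

variable {G : Type} [Group G] [Finite G] {Q : Type} [Group Q] [Finite Q] (q : G →* Q)
  (hq : Function.Surjective q) (code : G → ℕ) (zc : ℕ) (L : List ℕ) (T : ModData)
  (hmul : ∀ a b, code (a * b) = permMul (code a) (code b)) (hone : code 1 = permOne)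
  (hsame : ∀ a b, q a = q b ↔ sameMod zc (code a) (code b) = true)
  (hL : ∀ a, code a ∈ L) (hL' : ∀ c ∈ L, ∃ a, code a = c)

include hq hmul hone hsame hL hL'

omit hq hone hL hL' in
theorem commMod_iff (a b : G) :
    commMod zc (code a) (code b) = true ↔ q a * q b = q b * q a := by
  rw [commMod, ← hmul, ← hmul, ← hsame, map_mul, map_mul]

omit hq hone hsame hL hmul in
theorem exists_of_any {c : ℕ} (h : (L.any fun y => Nat.beq c y) = true) : ∃ a, code a = c := by
  obtain ⟨y, hy, e⟩ := List.any_eq_true.1 h
  exact hL' c (Nat.eq_of_beq_eq_true e ▸ hy)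

theorem card_center_le_eight (hT : T.maxOK zc L = true) (M : Subgroup Q) (hidx : M.index = 2) :
    Nat.card (Subgroup.center M) ≤ 8 := by
  classical
  simp only [ModData.maxOK, Bool.and_eq_true, List.all_eq_true, List.mem_range,
    Bool.or_eq_true, List.any_eq_true, Bool.not_eq_true', Nat.ble_eq] at hT
  obtain ⟨⟨hlen, hmem⟩, hall⟩ := hT
  have hlen' : T.base.length = 4 := Nat.eq_of_beq_eq_true hlen
  have hex : ∀ x ∈ T.base ++ T.roots, ∃ a, code a = x := fun x hx =>
    exists_of_any (code := code) (L := L) (hL' := hL') (List.any_eq_true.2 (hmem x hx))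
  have hb : ∀ i, ∃ a, code a = T.base.getD i permOne := by
    intro i
    by_cases hi : i < T.base.length
    · rw [List.getD_eq_getElem _ _ hi]
      exact hex _ (List.mem_append_left _ (List.getElem_mem hi))
    · rw [List.getD_eq_default _ _ (not_lt.1 hi)]
      exact ⟨1, hone⟩
  choose b hb using hb
  let bit : ℕ → ℕ := fun i => if q (b i) ∈ M then 0 else 2 ^ i
  set f := bit 0 + bit 1 + bit 2 + bit 3
  have hf : f < 16 ∧ ∀ i < 4, f.testBit i = decide (q (b i) ∉ M) := by
    refine ⟨?_, fun i hi => ?_⟩
    · simp only [f, bit]; split_ifs <;> norm_num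
    · by_cases h0 : q (b 0) ∈ M <;> by_cases h1 : q (b 1) ∈ M <;>
        by_cases h2 : q (b 2) ∈ M <;> by_cases h3 : q (b 3) ∈ M <;>
        simp only [f, bit, h0, h1, h2, h3, if_true, if_false] <;>
        interval_cases i <;> simp [*, Nat.testBit, Nat.shiftRight_eq_div_pow]
  have hgens : ∀ c ∈ T.maxGens f, ∃ a, code a = c ∧ q a ∈ M := by
    intro c hc
    simp only [ModData.maxGens, List.mem_append, List.mem_map, List.mem_filterMap,
      List.mem_range] at hc
    rcases hc with ⟨x, hx, rfl⟩ | ⟨i, hi, hc⟩
    · obtain ⟨a, rfl⟩ := hex x (List.mem_append_right _ hx)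
      refine ⟨a * a, hmul a a, ?_⟩
      rw [map_mul]
      exact Subgroup.mul_self_mem_of_index_two hidx (q a)
    · rw [hf.2 i hi] at hc
      by_cases him : q (b i) ∈ M
      · simp [him] at hc
        exact ⟨b i, (hb i).trans hc, him⟩
      · simp only [him, not_false_eq_true, decide_true, cond_true] at hc
        set k := ((List.range 4).find? fun j => f.testBit j).getD 4 with hk
        cases hbk : Nat.beq i k with
        | true => rw [hbk] at hc; simp at hc
        | false =>
          rw [hbk] at hc
          simp only [cond_false, Option.some.injEq] at hc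
          refine ⟨b i * b k, by rw [hmul, hb, hb]; exact hc, ?_⟩
          rw [map_mul, Subgroup.mul_mem_iff_of_index_two hidx]
          refine iff_of_false him ?_
          cases hfind : (List.range 4).find? fun j => f.testBit j with
          | none =>
            rw [List.find?_eq_none] at hfind
            exact absurd ((hf.2 i hi).trans (decide_eq_true him)) (hfind i (List.mem_range.2 hi))
          | some j =>
            have hj4 := List.mem_range.1 (List.mem_of_find?_eq_some hfind)
            have hj := List.find?_some hfind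
            rw [hf.2 j hj4, decide_eq_true_eq] at hj
            rw [hk, hfind, Option.getD_some]
            exact hj
  obtain ⟨⟨hlen8, hcmem⟩, hcover⟩ := hall f hf.1
  have hc : ∀ x : Subgroup.center M, ∃ c : Fin (T.centres.getD f []).length,
      ∀ a, code a = (T.centres.getD f []).get c → q a = ((x : M) : Q) := by
    intro x
    obtain ⟨a, ha⟩ := hq ((x : M) : Q)
    rcases hcover (code a) (hL a) with ⟨c, hc, e⟩ | ⟨g, hg, e⟩
    · obtain ⟨k, hk⟩ := List.mem_iff_get.1 hc
      refine ⟨k, fun a' ha' => ?_⟩
      rw [← ha]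
      refine ((hsame a a').2 ?_).symm
      rw [ha', hk]
      exact e
    · obtain ⟨a₂, rfl, hm⟩ := hgens g hg
      have hcm : q a * q a₂ = q a₂ * q a := by
        rw [ha]
        exact (congrArg Subtype.val (Subgroup.mem_center_iff.1 x.2 ⟨q a₂, hm⟩)).symm
      rw [(commMod_iff q code zc hmul hsame a a₂).2 hcm] at e
      exact absurd e (by simp)
  choose c hc using hc
  refine le_trans (le_trans (Nat.card_le_card_of_injective c ?_) (le_of_eq (Nat.card_fin _))) hlen8
  intro x y hxy
  obtain ⟨a, ha⟩ := exists_of_any (code := code) (L := L) (hL' := hL')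
    (List.any_eq_true.2 (hcmem _ (List.get_mem _ (c x))))
  exact Subtype.ext (Subtype.ext ((hc x a ha).symm.trans (hc y a (hxy ▸ ha))))

theorem exists_abelian (hT : T.abOK zc L = true) :
    (∀ k, k < 64 → ∃ a, code a = T.aEls.getD k 0) ∧
    ∃ A : Subgroup Q, Cfsg.IsElementaryAbelian 2 A ∧ Nat.card A = 64 ∧
      ∀ x, x ∈ A ↔ ∃ k < 64, ∃ a, code a = T.aEls.getD k 0 ∧ q a = x := by
  classical
  simp only [ModData.abOK, Bool.and_eq_true, List.all_eq_true, List.mem_range,
    Bool.or_eq_true, List.any_eq_true, Bool.not_eq_true', Nat.blt_eq] at hT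
  obtain ⟨⟨⟨⟨⟨⟨⟨hlen, hmem⟩, hgmem⟩, h0⟩, hcomm⟩, hdist⟩, hstep⟩, hparent⟩ := hT
  have hlen' : T.aEls.length = 64 := Nat.eq_of_beq_eq_true hlen
  have hex : ∀ x ∈ T.aEls, ∃ a, code a = x := fun x hx =>
    exists_of_any (code := code) (L := L) (hL' := hL') (List.any_eq_true.2 (hmem x hx))
  have he : ∀ k, ∃ a, k < 64 → code a = T.aEls.getD k 0 := by
    intro k
    by_cases hk : k < 64
    · obtain ⟨a, ha⟩ := hex (T.aEls.getD k 0) (by
        rw [List.getD_eq_getElem _ _ (hlen' ▸ hk : k < T.aEls.length)]
        exact List.getElem_mem _)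
      exact ⟨a, fun _ => ha⟩
    · exact ⟨1, fun h => absurd h hk⟩
  choose e he using he
  have hg : ∀ g ∈ T.aGens, ∃ a, code a = g := by
    intro g hg
    obtain ⟨a, ha, h⟩ := hgmem g hg
    rw [Nat.eq_of_beq_eq_true h]
    exact hex a ha
  set S : Set Q := {x | ∃ g ∈ T.aGens, ∃ a, code a = g ∧ q a = x}
  have heq : ∀ {a b : G}, code a = code b → q a = q b := fun {a b} h =>
    (hsame a b).2 (by rw [h]; simp [sameMod])
  have hval : ∀ k < 64, ∀ j < T.aGens.length, ∀ a, code a = T.aGens.getD j 0 →
      q (e k) * q a = q (e ((T.aMul.getD k []).getD j 64)) := by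
    intro k hk j hj a ha
    obtain ⟨hlt, hs⟩ := hstep k hk j hj
    rw [← map_mul]
    refine (hsame _ _).2 ?_
    rw [hmul, he k hk, ha, he _ hlt]
    exact hs
  have hone' : q (e 0) = 1 := by
    rw [← map_one q]
    refine heq ?_
    rw [he 0 (by norm_num), hone]
    exact Nat.eq_of_beq_eq_true h0
  have hrange : ∀ x ∈ Subgroup.closure S, ∃ k < 64, q (e k) = x := by
    intro x hx
    rw [← Subgroup.mem_toSubmonoid, Subgroup.closure_toSubmonoid_of_finite] at hx
    induction hx using Submonoid.closure_induction_right with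
    | one => exact ⟨0, by norm_num, hone'⟩
    | mul_right x _ y hy ih =>
      obtain ⟨k, hk, rfl⟩ := ih
      obtain ⟨g, hg', a, ha, rfl⟩ := hy
      obtain ⟨j, hj, rfl⟩ := List.getElem_of_mem hg'
      refine ⟨_, (hstep k hk j hj).1, (hval k hk j hj a ?_).symm⟩
      rw [ha, List.getD_eq_getElem _ _ hj]
  have hmemA : ∀ k, k < 64 → q (e k) ∈ Subgroup.closure S := by
    intro k
    induction k using Nat.strong_induction_on with
    | _ k ih =>
      intro hk
      rcases hparent k hk with h | ⟨j, hjk, i, hi, h⟩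
      · rw [Nat.eq_of_beq_eq_true h, hone']; exact one_mem _
      · obtain ⟨a, ha⟩ := hg (T.aGens.getD i 0)
          (by rw [List.getD_eq_getElem _ _ hi]; exact List.getElem_mem _)
        rw [← Nat.eq_of_beq_eq_true h, ← hval j (hjk.trans hk) i hi a ha]
        exact mul_mem (ih j hjk (hjk.trans hk))
          (Subgroup.subset_closure ⟨_, by rw [List.getD_eq_getElem _ _ hi]; exact List.getElem_mem _,
            a, ha, rfl⟩)
  have hcS : ∀ x ∈ S, ∀ y ∈ S, x * y = y * x := by
    rintro _ ⟨g, hg', a, ha, rfl⟩ _ ⟨h, hh', b, hb, rfl⟩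
    rw [← commMod_iff q code zc hmul hsame, ha, hb]
    exact (hcomm g hg').2 h hh'
  have hAc : IsMulCommutative (Subgroup.closure S) := Subgroup.isMulCommutative_closure hcS
  refine ⟨fun k hk => ⟨e k, he k hk⟩, Subgroup.closure S, ⟨hAc, fun x hx => ?_⟩, ?_, fun x => ⟨fun hx => ?_, ?_⟩⟩
  · induction hx using Subgroup.closure_induction with
    | mem x hx =>
      obtain ⟨g, hg', a, ha, rfl⟩ := hx
      rw [pow_two, ← map_mul, ← map_one q]
      refine (hsame _ _).2 ?_
      rw [hmul, ha, hone]
      exact (hcomm g hg').1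
    | one => exact one_pow 2
    | mul x y hx hy ihx ihy =>
      rw [Commute.mul_pow (hAc.is_comm.comm ⟨x, hx⟩ ⟨y, hy⟩ |> congrArg Subtype.val), ihx, ihy,
        one_mul]
    | inv x _ ih => rw [inv_pow, ih, inv_one]
  · let φ : Fin 64 → Subgroup.closure S := fun k => ⟨q (e k), hmemA k k.2⟩
    have hbij : Function.Bijective φ := by
      refine ⟨fun k j h => ?_, fun x => ?_⟩
      · have h' : q (e k) = q (e j) := congrArg Subtype.val h
        rcases lt_trichotomy (j : ℕ) k with hl | hl | hl
        · have := hdist k k.2 j hl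
          rw [← he k k.2, ← he j j.2, (hsame _ _).1 h'] at this
          simp at this
        · exact Fin.ext hl.symm
        · have := hdist j j.2 k hl
          rw [← he k k.2, ← he j j.2, (hsame _ _).1 h'.symm] at this
          simp at this
      · obtain ⟨k, hk, h⟩ := hrange x.1 x.2
        exact ⟨⟨k, hk⟩, Subtype.ext h⟩
    rw [← Nat.card_congr (Equiv.ofBijective φ hbij), Nat.card_fin]
  · obtain ⟨k, hk, rfl⟩ := hrange x hx
    exact ⟨k, hk, e k, he k hk, rfl⟩
  · rintro ⟨k, hk, a, ha, rfl⟩
    rw [heq (ha.trans (he k hk).symm)]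
    exact hmemA k hk

theorem abelian_eq (hT : T.cosetOK zc L = true)
    (haEls : ∀ k, k < 64 → ∃ a, code a = T.aEls.getD k 0) (A B : Subgroup Q)
    (hA : ∀ x, x ∈ A ↔ ∃ k < 64, ∃ a, code a = T.aEls.getD k 0 ∧ q a = x)
    (hAcard : Nat.card A = 64) (hAc : IsMulCommutative A)
    (hBc : IsMulCommutative B) (hBcard : Nat.card B = 64) : B = A := by
  classical
  simp only [ModData.cosetOK, Bool.and_eq_true, List.all_eq_true, List.mem_range,
    Bool.or_eq_true, List.any_eq_true, Bool.not_eq_true', Nat.ble_eq, Nat.blt_eq] at hT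
  obtain ⟨⟨⟨⟨⟨⟨hlen, h0⟩, hrmem⟩, hplen⟩, hpos⟩, hsmall⟩, hspec⟩ := hT
  have hlen' : T.reps.length = 8 := Nat.eq_of_beq_eq_true hlen
  have hr : ∀ i : Fin 8, ∃ a, code a = T.reps.getD i 0 := fun i => by
    refine exists_of_any (code := code) (L := L) (hL' := hL') (List.any_eq_true.2 (hrmem _ ?_))
    rw [List.getD_eq_getElem _ _ (show (i : ℕ) < T.reps.length by have := i.2; omega)]
    exact List.getElem_mem _
  choose r hr using hr
  have hdec : ∀ x : Q, ∃ i : Fin 8, (q (r i))⁻¹ * x ∈ A := by
    intro x
    obtain ⟨a, rfl⟩ := hq x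
    obtain ⟨n, hn, hna⟩ := List.getElem_of_mem (hL a)
    have hn' : n < T.pos.length := Nat.eq_of_beq_eq_true hplen ▸ hn
    obtain ⟨⟨hi, hk⟩, hs⟩ := hpos ((L.zip T.pos)[n]'(by simp [hn, hn'])) (List.getElem_mem _)
    simp only [List.getElem_zip, hna] at hi hk hs
    refine ⟨⟨_, hi⟩, ?_⟩
    obtain ⟨a', ha'⟩ := haEls (T.pos[n]).2 hk
    have hmem : q a' ∈ A := (hA _).2 ⟨_, hk, a', ha', rfl⟩
    have : q a = q (r ⟨_, hi⟩) * q a' := by
      rw [← map_mul]
      refine (hsame _ _).2 ?_
      rw [hmul, hr, ha']
      exact hs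
    rw [this, inv_mul_cancel_left]
    exact hmem
  choose f hf using hdec
  have hr0 : q (r 0) = 1 := by
    rw [← map_one q]
    refine (hsame _ _).2 ?_
    rw [hr, hone, Fin.val_zero, List.getD_eq_getElem _ _ (by omega : 0 < T.reps.length)]
    rw [List.getD_eq_getElem _ _ (by omega : 0 < T.reps.length)] at h0
    simp [sameMod, h0]
  have hf0 : ∀ x, f x = 0 → x ∈ A := fun x hx => by
    have := hf x
    rwa [hx, hr0, inv_one, one_mul] at this
  -- the elements of the intersection commute with the representatives met by `B`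
  have hcomm : ∀ x ∈ B, ∀ y ∈ A ⊓ B, y * q (r (f x)) = q (r (f x)) * y := by
    intro x hx y hy
    set w := (q (r (f x)))⁻¹ * x with hw
    have hyw : y * w = w * y := congrArg Subtype.val (hAc.is_comm.comm ⟨y, hy.1⟩ ⟨w, hf x⟩)
    have hyx : y * x = x * y := congrArg Subtype.val (hBc.is_comm.comm ⟨y, hy.2⟩ ⟨x, hx⟩)
    have hxw : q (r (f x)) = x * w⁻¹ := by rw [hw]; group
    rw [hxw, ← mul_assoc, hyx, mul_assoc, mul_assoc]
    congr 1
    exact ((Commute.inv_right (show Commute y w from hyw))).eq
  have hinter : ∀ i j : Fin 8, (∀ y ∈ A ⊓ B, y * q (r i) = q (r i) * y) →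
      (∀ y ∈ A ⊓ B, y * q (r j) = q (r j) * y) →
      Nat.card ↥(A ⊓ B) ≤ (T.centPair zc i j).length := by
    intro i j hi hj
    have hk : ∀ y : ↥(A ⊓ B), ∃ k : Fin (T.centPair zc i j).length, ∀ a,
        code a = T.aEls.getD ((T.centPair zc i j).get k) 0 → q a = (y : Q) := by
      intro y
      obtain ⟨k, hk, a, ha, hay⟩ := (hA _).1 y.2.1
      have hmem : k ∈ T.centPair zc i j := by
        refine List.mem_filter.2 ⟨List.mem_range.2 hk, ?_⟩
        rw [Bool.and_eq_true, ← ha, ← hr i, ← hr j, commMod_iff q code zc hmul hsame,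
          commMod_iff q code zc hmul hsame, hay]
        exact ⟨hi y y.2, hj y y.2⟩
      obtain ⟨m, hm⟩ := List.mem_iff_get.1 hmem
      refine ⟨m, fun a' ha' => ?_⟩
      rw [hm, ← ha] at ha'
      rw [← hay]
      exact (hsame _ _).2 (by rw [ha']; simp [sameMod])
    choose k hk using hk
    refine (Nat.card_le_card_of_injective k fun y y' h => Subtype.ext ?_).trans
      (le_of_eq (Nat.card_fin _))
    have hlt : (T.centPair zc i j).get (k y) < 64 :=
      List.mem_range.1 (List.mem_filter.1 (List.get_mem (T.centPair zc i j) (k y))).1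
    obtain ⟨a, ha⟩ := haEls _ hlt
    exact (hk y a ha).symm.trans (hk y' a (h ▸ ha))
  let I : Finset (Fin 8) := Finset.univ.filter fun i => ∃ x ∈ B, f x = i
  have hIB : ∀ x ∈ B, f x ∈ I := fun x hx => Finset.mem_filter.2 ⟨Finset.mem_univ _, x, hx, rfl⟩
  have hIc : ∀ i ∈ I, ∀ y ∈ A ⊓ B, y * q (r i) = q (r i) * y := by
    intro i hi y hy
    obtain ⟨x, hx, rfl⟩ := (Finset.mem_filter.1 hi).2
    exact hcomm x hx y hy
  have hcount : Nat.card B ≤ I.card * Nat.card ↥(A ⊓ B) := by
    let pick : Fin 8 → Q := fun i => if h : ∃ x ∈ B, f x = i then h.choose else 1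
    have hpick : ∀ x ∈ B, pick (f x) ∈ B ∧ f (pick (f x)) = f x := fun x hx => by
      have h : ∃ y ∈ B, f y = f x := ⟨x, hx, rfl⟩
      simp only [pick, dif_pos h]
      exact h.choose_spec
    have hmem : ∀ x : B, (pick (f x))⁻¹ * (x : Q) ∈ A ⊓ B := fun x => by
      obtain ⟨hp, hpf⟩ := hpick x x.2
      have h1 := hf (pick (f x))
      rw [hpf] at h1
      have h2 : ((q (r (f x)))⁻¹ * pick (f x))⁻¹ * ((q (r (f x)))⁻¹ * (x : Q)) ∈ A :=
        A.mul_mem (A.inv_mem h1) (hf x)
      rw [show ((q (r (f x)))⁻¹ * pick (f x))⁻¹ * ((q (r (f x)))⁻¹ * (x : Q)) =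
        (pick (f x))⁻¹ * (x : Q) by group] at h2
      exact Subgroup.mem_inf.2 ⟨h2, B.mul_mem (B.inv_mem hp) x.2⟩
    let φ : B → I × ↥(A ⊓ B) := fun x => (⟨f x, hIB x x.2⟩, ⟨_, hmem x⟩)
    have hφ : Function.Injective φ := by
      intro x y h
      have h1 : f x = f y := congrArg (fun w => (w.1 : Fin 8)) h
      have h2 : (pick (f x))⁻¹ * (x : Q) = (pick (f y))⁻¹ * y := congrArg (fun w => (w.2 : Q)) h
      rw [h1] at h2
      exact Subtype.ext (mul_left_cancel h2)
    have := Nat.card_le_card_of_injective φ hφ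
    rwa [Nat.card_prod, Nat.card_eq_finsetCard] at this
  by_cases hBA : B ≤ A
  · exact Subgroup.eq_of_le_of_card_ge hBA (by rw [hAcard, hBcard])
  exfalso
  obtain ⟨x, hx, hxA⟩ := SetLike.not_le_iff_exists.1 hBA
  have hfx : f x ≠ 0 := fun h => hxA (hf0 x h)
  have hne : ∀ i : Fin 8, i ≠ 0 → ¬ Nat.beq (i : ℕ) 0 = true := fun i hi h =>
    hi (Fin.ext (Nat.eq_of_beq_eq_true h))
  have h16 : Nat.card ↥(A ⊓ B) ≤ 16 :=
    (hinter _ _ (hIc _ (hIB x hx)) (hIc _ (hIB x hx))).trans
      ((hsmall _ (f x).2).resolve_left (hne _ hfx)).1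
  have h4 : 3 ≤ I.card := by
    rw [hBcard] at hcount
    by_contra h
    have := Nat.mul_le_mul (Nat.le_of_lt_succ (not_le.1 h)) h16
    omega
  obtain ⟨i, hi, hix⟩ : ∃ i ∈ I, i ≠ 0 ∧ i ≠ f x := by
    by_contra h
    push Not at h
    have : I ⊆ {0, f x} := fun i hi => by
      rw [Finset.mem_insert, Finset.mem_singleton]
      by_cases h0 : i = 0
      · exact Or.inl h0
      · exact Or.inr (h i hi h0)
    have := (Finset.card_le_card this).trans Finset.card_le_two
    omega
  have h8 : Nat.card ↥(A ⊓ B) ≤ 8 := by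
    rcases lt_trichotomy (i : ℕ) (f x : ℕ) with hl | hl | hl
    · exact (hinter _ _ (hIc _ (hIB x hx)) (hIc _ hi)).trans
        ((((hsmall _ (f x).2).resolve_left (hne _ hfx)).2 i hl).resolve_left (hne _ hix.1))
    · exact absurd (Fin.ext hl) hix.2
    · exact (hinter _ _ (hIc _ hi) (hIc _ (hIB x hx))).trans
        ((((hsmall _ i.2).resolve_left (hne _ hix.1)).2 _ hl).resolve_left (hne _ hfx))
  have hI : I = Finset.univ := by
    refine Finset.eq_univ_of_card _ ?_
    rw [Fintype.card_fin]
    rw [hBcard] at hcount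
    have := Nat.mul_le_mul_left I.card h8
    have := Finset.card_le_univ I
    rw [Fintype.card_fin] at this
    omega
  obtain ⟨i', hi', j', hj', -, h4'⟩ := hspec
  have := hinter ⟨i', hi'⟩ ⟨j', hj'.trans hi'⟩ (hIc _ (hI ▸ Finset.mem_univ _))
    (hIc _ (hI ▸ Finset.mem_univ _))
  rw [hBcard, hI, Finset.card_univ, Fintype.card_fin] at hcount
  have := this.trans h4'
  omega

end

end Cfsg.Agent.Golay
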